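import Cfsg.Agent.H507.GmnCover
import Cfsg.Agent.H952.On.Table

/-!
# S3855: a real element centralised by the outer automorphisms of `p`-power order

* `ev_of_cent` : a real `p`-element of `S` with stabiliser in `MulAut S` of index prime to `p`;
* `ev_of_fixed` : a real `p`-element `z` of `S` with centraliser of index prime to `p`, fixed by a `p`-group of
  outer automorphisms of the largest possible order.
-/

set_option autoImplicit false
set_option linter.unusedSectionVars false

namespace Cfsg.Agent.H142.OnCrit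

open Subgroup Cfsg.Agent.H467.OddNorm

/-- **Burnside**, with a normal subgroup. -/
theorem exists_of_real {G : Type*} [Group G] [Finite G] {p : ℕ} [hp : Fact p.Prime] (hp2 : p ≠ 2) {N : Subgroup G}
    [N.Normal] {z g : G} (hz : z ≠ 1) (hzp : ∃ k : ℕ, z ^ p ^ k = 1) (hi : ¬ p ∣ (centralizer ({z} : Set G)).index)
    (hgN : g ∈ N) (hg : g * z * g⁻¹ = z⁻¹) :
    ∃ P : Sylow p G, ∃ t ∈ N, orderOf t = 2 ∧ t ∈ normalizer ((P : Subgroup G) : Set G) := by
  classical
  obtain ⟨P0⟩ : Nonempty (Sylow p ↥(centralizer ({z} : Set G))) := inferInstance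
  set P : Subgroup G := (P0 : Subgroup ↥(centralizer ({z} : Set G))).map (centralizer ({z} : Set G)).subtype with hP
  have hPM : P ≤ centralizer ({z} : Set G) := by
    rintro _ ⟨x, -, rfl⟩
    exact x.2
  have hPp : IsPGroup p ↥P := P0.isPGroup'.map _
  have hPi : ¬ p ∣ P.index := by
    have h1 : P.relIndex (centralizer ({z} : Set G)) * (centralizer ({z} : Set G)).index = P.index :=
      relIndex_mul_index hPM
    have h2 : P.relIndex (centralizer ({z} : Set G)) = (P0 : Subgroup ↥(centralizer ({z} : Set G))).index := by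
      rw [relIndex, hP, subgroupOf, comap_map_eq_self_of_injective (subtype_injective _)]
    rw [← h1, h2]
    intro h3
    rcases (hp.out.dvd_mul).1 h3 with h3 | h3
    · exact P0.not_dvd_index h3
    · exact hi h3
  -- `z ∈ P`
  have hzP : z ∈ P := by
    have hzC : z ∈ centralizer ({z} : Set G) := mem_centralizer_singleton_iff.2 rfl
    have hcen : (⟨z, hzC⟩ : ↥(centralizer ({z} : Set G))) ∈ center ↥(centralizer ({z} : Set G)) := by
      rw [Subgroup.mem_center_iff]
      intro y
      exact Subtype.ext (mem_centralizer_singleton_iff.1 y.2)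
    obtain ⟨k, hk⟩ := hzp
    have hpz : IsPGroup p ↥(zpowers (⟨z, hzC⟩ : ↥(centralizer ({z} : Set G)))) := by
      rintro ⟨_, j, rfl⟩
      refine ⟨k, ?_⟩
      apply Subtype.ext
      apply Subtype.ext
      simp only [SubmonoidClass.coe_pow, Subgroup.coe_zpow, OneMemClass.coe_one]
      rw [← zpow_natCast, ← zpow_mul, mul_comm, zpow_mul, zpow_natCast, hk, one_zpow]
    have _hn : (zpowers (⟨z, hzC⟩ : ↥(centralizer ({z} : Set G)))).Normal := by
      refine ⟨?_⟩
      rintro _ ⟨j, rfl⟩ y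
      refine ⟨j, ?_⟩
      have h1 := Subgroup.mem_center_iff.1 (Subgroup.zpow_mem _ hcen j) y
      show _ = y * _ * y⁻¹
      rw [h1]; group
    obtain ⟨P1, hP1⟩ := hpz.exists_le_sylow
    have h2 : (⟨z, hzC⟩ : ↥(centralizer ({z} : Set G))) ∈ (P0 : Subgroup _) := by
      obtain ⟨y, hy⟩ := MulAction.exists_smul_eq (↥(centralizer ({z} : Set G))) P1 P0
      rw [← hy, Sylow.smul_def, Sylow.pointwise_smul_def, Subgroup.mem_pointwise_smul_iff_inv_smul_mem]
      have h3 : (MulAut.conj y)⁻¹ • (⟨z, hzC⟩ : ↥(centralizer ({z} : Set G))) = ⟨z, hzC⟩ := by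
        show (MulAut.conj y)⁻¹ _ = _
        rw [MulAut.conj_inv_apply, mul_assoc, ← Subgroup.mem_center_iff.1 hcen y]
        group
      rw [h3]
      exact hP1 (mem_zpowers _)
    exact ⟨_, h2, rfl⟩
  obtain ⟨t, htN, ht2, htn⟩ := Cfsg.Agent.H467.OddNorm.of_real hp2 (N := N) (P := P) hPp
    (fun h3 => hPi (h3.trans (relIndex_dvd_index_of_le le_sup_right))) hzP (fun x hx => by
      exact mem_centralizer_singleton_iff.1 (hPM hx)) hz (g := g) (mem_sup_left hgN) hg
  exact ⟨hPp.toSylow hPi, t, htN, ht2, htn⟩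

variable {S : Type*} [Group S] [Finite S] {p : ℕ} [hp : Fact p.Prime]

theorem ev_of_cent (hp2 : p ≠ 2) (hZ : center S = ⊥) {z g : S} (hz : z ≠ 1) (hzp : ∃ k : ℕ, z ^ p ^ k = 1)
    (hi : ¬ p ∣ (centralizer ({MulAut.conj z} : Set (MulAut S))).index) (hg : g * z * g⁻¹ = z⁻¹) : Ev p S := by
  have hinj := conj_injective hZ
  have hfin := Cfsg.Agent.H712.Gmn.finite_mulAut (S := S)
  have h1 : MulAut.conj z ≠ 1 := fun h => hz (hinj (by rw [h, map_one]))
  have h2 : ∃ k : ℕ, (MulAut.conj z) ^ p ^ k = 1 := by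
    obtain ⟨k, hk⟩ := hzp
    exact ⟨k, by rw [← map_pow, hk, map_one]⟩
  obtain ⟨P, t, ⟨s, rfl⟩, ht2, htn⟩ := exists_of_real hp2 (N := (MulAut.conj : S →* MulAut S).range) h1 h2 hi
    (g := MulAut.conj g) ⟨g, rfl⟩ (by rw [← map_inv, ← map_mul, ← map_mul, hg, map_inv])
  exact ⟨P, s, by rw [← ht2, orderOf_injective _ hinj], htn⟩

/-- **The criterion.** -/
theorem ev_of_fixed (hp2 : p ≠ 2) (hZ : center S = ⊥) {C : Type*} [Group C] [Finite C] (φ : C →* MulAut S)
    (hinj : ∀ c : C, orderOf c = p → φ c ∉ (MulAut.conj : S →* MulAut S).range)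
    (hC : ∀ k, p ^ k ∣ ((MulAut.conj : S →* MulAut S).range).index → p ^ k ∣ Nat.card C) (Cp : Sylow p C) {z g : S}
    (hz : z ≠ 1) (hzp : ∃ k : ℕ, z ^ p ^ k = 1) (hfix : ∀ c ∈ Cp, φ c z = z)
    (hi : ¬ p ∣ (centralizer ({z} : Set S)).index) (hg : g * z * g⁻¹ = z⁻¹) : Ev p S := by
  have hci := conj_injective hZ
  have hfin := Cfsg.Agent.H712.Gmn.finite_mulAut (S := S)
  refine ev_of_cent hp2 hZ hz hzp ?_ hg
  set Z := centralizer ({MulAut.conj z} : Set (MulAut S)) with hZdef
  set I := (MulAut.conj : S →* MulAut S).range with hI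
  have hmem : ∀ α : MulAut S, α ∈ Z ↔ α z = z := by
    intro α
    rw [hZdef, mem_centralizer_singleton_iff]
    have h1 := conj_conj α z
    constructor
    · intro h2
      apply hci
      rw [← h1, h2]
      group
    · intro h2
      rw [h2, mul_inv_eq_iff_eq_mul] at h1
      exact h1
  intro hd
  have e1 : Z.relIndex (Z ⊔ I) * (Z ⊔ I).index = Z.index := relIndex_mul_index le_sup_left
  rw [← e1, H507.Gmn.relIndex_sup_self] at hd
  rcases (hp.out.dvd_mul).1 hd with h1 | h1
  · apply hi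
    have h2 : Z.comap (MulAut.conj : S →* MulAut S) = centralizer ({z} : Set S) := by
      ext s
      rw [mem_comap, hmem, MulAut.conj_apply, mem_centralizer_singleton_iff, mul_inv_eq_iff_eq_mul]
    rw [← h2, index_comap]
    exact h1
  · -- the outer part
    have hker : ∀ c ∈ Cp, φ c ∈ I → c = 1 := by
      intro c hc hcI
      by_contra hne
      obtain ⟨k, hk⟩ := Cp.isPGroup' ⟨c, hc⟩
      have hk' : c ^ p ^ k = 1 := by simpa using congrArg Subtype.val hk
      obtain ⟨m, hm⟩ : ∃ m, orderOf (c ^ m) = p := by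
        obtain ⟨j, -, hj⟩ := (Nat.dvd_prime_pow hp.out).1 (orderOf_dvd_of_pow_eq_one hk')
        have hj0 : j ≠ 0 := by
          rintro rfl
          rw [pow_zero, orderOf_eq_one_iff] at hj
          exact hne hj
        refine ⟨p ^ (j - 1), ?_⟩
        rw [orderOf_pow' _ (pow_ne_zero _ hp.out.ne_zero), hj, Nat.gcd_eq_right (pow_dvd_pow p (Nat.sub_le j 1)),
          Nat.pow_div (Nat.sub_le j 1) hp.out.pos, Nat.sub_sub_self (Nat.one_le_iff_ne_zero.2 hj0), pow_one]
      exact hinj _ hm (by rw [map_pow]; exact pow_mem hcI m)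
    have hle : (Cp : Subgroup C).map φ ≤ Z := by
      rintro _ ⟨c, hc, rfl⟩
      exact (hmem _).2 (hfix c hc)
    let f : ↥(Cp : Subgroup C) →* ↥Z ⧸ I.subgroupOf Z :=
      (QuotientGroup.mk' (I.subgroupOf Z)).comp
        ((φ.comp (Cp : Subgroup C).subtype).codRestrict Z fun c => (hmem _).2 (hfix c c.2))
    have hf : Function.Injective f := by
      rw [injective_iff_map_eq_one]
      intro c hc
      have h2 : (φ (c : C)) ∈ I := by
        have h3 := (QuotientGroup.eq_one_iff _).1 hc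
        exact mem_subgroupOf.1 h3
      exact Subtype.ext (hker c c.2 h2)
    have h2 : Nat.card ↥(Cp : Subgroup C) ∣ I.relIndex (Z ⊔ I) := by
      have h3 : I.relIndex Z ∣ I.relIndex (Z ⊔ I) := by
        rw [Subgroup.relIndex_sup_right]
      refine dvd_trans ?_ h3
      rw [relIndex, Subgroup.index]
      exact Subgroup.card_dvd_of_injective f hf
    have h3 : I.relIndex (Z ⊔ I) * (Z ⊔ I).index = I.index := relIndex_mul_index le_sup_right
    obtain ⟨k, hk⟩ := IsPGroup.iff_card.1 Cp.isPGroup'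
    have h4 : p ^ (k + 1) ∣ I.index := by
      rw [← h3, pow_succ, ← hk]
      exact mul_dvd_mul h2 h1
    have h5 := hC _ h4
    have h6 := (Cp : Subgroup C).card_mul_index
    rw [← h6, hk, pow_succ] at h5
    exact Cp.not_dvd_index (Nat.dvd_of_mul_dvd_mul_left (pow_pos hp.out.pos k) h5)

end Cfsg.Agent.H142.OnCrit
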