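import Cfsg.Agent.H142.OnCrit
import Cfsg.Agent.H967.FaBase
import Cfsg.Agent.H722.RealP

/-!
# S3855: abelian Sylow `p`-subgroups, real elements fixed by field automorphisms

`ev_of_field` : `G` a matrix group over `F` stable under the field automorphisms, all automorphisms of `p`-power order
modulo inner ones being field automorphisms (by orders), the centralisers of the elements of order `p` of index prime to
`p`, a real element of order `p` fixed by the field automorphisms of `p`-power order : `Ev p G`.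
-/

set_option autoImplicit false
set_option linter.unusedSectionVars false

namespace Cfsg.Agent.H142.OnField

open Subgroup Cfsg.Agent.H467.OddNorm Cfsg.Agent.H967.CopMat Cfsg.Agent.H722.RealP

/-- abelian Sylow subgroups: the centraliser of an element of order `p` has index prime to `p` -/
theorem not_dvd_index_of_abelian {S : Type*} [Group S] [Finite S] {p : ℕ} [hp : Fact p.Prime]
    (h : ∀ P : Sylow p S, ∀ x ∈ P, ∀ y ∈ P, x * y = y * x) {z : S} (hz : z ^ p = 1) :
    ¬ p ∣ (centralizer ({z} : Set S)).index := by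
  have h1 : IsPGroup p (zpowers z) := by
    rintro ⟨_, j, rfl⟩
    refine ⟨1, Subtype.ext ?_⟩
    show (z ^ j) ^ p ^ 1 = 1
    rw [pow_one, ← zpow_natCast, ← zpow_mul, mul_comm, zpow_mul, zpow_natCast, hz, one_zpow]
  obtain ⟨P, hP⟩ := h1.exists_le_sylow
  have hzP : z ∈ P := hP (mem_zpowers z)
  have h2 : (P : Subgroup S) ≤ centralizer ({z} : Set S) := fun x hx => by
    rw [mem_centralizer_singleton_iff]
    exact h P x hx z hzP
  intro hd
  exact P.not_dvd_index (hd.trans (index_dvd_of_le h2))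

/-- homomorphisms from a group over the fixed field -/
theorem exists_fixed_real {ι : Type*} [Fintype ι] [DecidableEq ι] {F : Type*} [Field F] {G : Subgroup (GL ι F)}
    (hG : Stab G) (σ : F ≃+* F) {G₀ : Subgroup (GL ι ↥(Fx σ))}
    (h : G₀.map (Matrix.GeneralLinearGroup.map (Fx σ).subtype) ≤ G) {p : ℕ} (hr : HasReal p ↥G₀) :
    ∃ z g : ↥G, orderOf z = p ∧ g * z * g⁻¹ = z⁻¹ ∧ fieldAut hG σ z = z := by
  let f₀ : ↥G₀ →* ↥G :=
    { toFun := fun g => ⟨Matrix.GeneralLinearGroup.map (Fx σ).subtype g.1, h ⟨g.1, g.2, rfl⟩⟩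
      map_one' := Subtype.ext (map_one _)
      map_mul' := fun a b => Subtype.ext (map_mul _ _ _) }
  have hinj : Function.Injective f₀ := fun a b hab =>
    Subtype.ext (map_injective (Fx σ).subtype (congrArg Subtype.val hab))
  obtain ⟨x, t, hx, -, hxt⟩ := hr
  refine ⟨f₀ x, f₀ t, by rw [orderOf_injective f₀ hinj, hx], ?_, Subtype.ext (map_fixed σ x.1)⟩
  rw [← map_inv, ← map_mul, ← map_mul, hxt, map_inv]

variable {ι : Type*} [Fintype ι] [DecidableEq ι] {F : Type} [Field F] [Fintype F] {G : Subgroup (GL ι F)}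

/-- **The criterion.** -/
theorem ev_of_field (hG : Stab G) {p : ℕ} [hp : Fact p.Prime] (hp2 : p ≠ 2) (hZ : center ↥G = ⊥)
    (hinn : ∀ σ : F ≃+* F, σ ≠ 1 → fieldAut hG σ ∉ Cfsg.Inn ↥G)
    {r f c : ℕ} [Fact r.Prime] [CharP F r] (hf : 1 ≤ f) (hF : Fintype.card F = r ^ f)
    (hc : Nat.card (Cfsg.Out ↥G) ∣ c * f) (hcp : ¬ p ∣ c)
    (hab : ∀ P : Sylow p ↥G, ∀ x ∈ P, ∀ y ∈ P, x * y = y * x)
    (hreal : ∀ σ : F ≃+* F, (∃ k, orderOf σ = p ^ k) → ∃ z g : ↥G, orderOf z = p ∧ g * z * g⁻¹ = z⁻¹ ∧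
      fieldAut hG σ z = z) : Ev p ↥G := by
  have hfin : Finite (F ≃+* F) := Finite.of_injective (fun f : F ≃+* F => (f : F → F)) DFunLike.coe_injective
  have hcard : Nat.card (F ≃+* F) = f := Cfsg.Agent.Lib.FieldAutCard.card_ringAut hf hF
  obtain ⟨τ, hτ⟩ := exists_ringAut r f hF
  have hcyc : IsCyclic (F ≃+* F) := isCyclic_of_orderOf_eq_card τ (by rw [hτ, hcard])
  obtain ⟨Cp⟩ : Nonempty (Sylow p (F ≃+* F)) := inferInstance
  obtain ⟨⟨σ, hσ⟩, hgen⟩ := (Subgroup.isCyclic (Cp : Subgroup (F ≃+* F))).exists_generator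
  obtain ⟨z, g, hz, hg, hfix⟩ := hreal σ (by
    obtain ⟨k, hk⟩ := IsPGroup.iff_orderOf.1 Cp.isPGroup' ⟨σ, hσ⟩
    exact ⟨k, by rw [← hk, Subgroup.orderOf_mk]⟩)
  have hz1 : z ≠ 1 := by
    rintro rfl
    rw [orderOf_one] at hz
    exact hp.out.one_lt.ne hz
  have hzp : z ^ p = 1 := by rw [← hz, pow_orderOf_eq_one]
  refine OnCrit.ev_of_fixed hp2 hZ (fieldAut hG) (fun c hc => hinn c ?_) (fun k hk => ?_) Cp hz1
    ⟨1, by rw [pow_one, hzp]⟩ (fun c hc => ?_) (not_dvd_index_of_abelian hab hzp) hg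
  · rintro rfl
    rw [orderOf_one] at hc
    exact hp.out.one_lt.ne hc
  · rw [hcard]
    have h1 : (p ^ k).Coprime c := Nat.Coprime.pow_left _ (hp.out.coprime_iff_not_dvd.2 hcp)
    exact h1.dvd_of_dvd_mul_left ((show p ^ k ∣ Nat.card (Cfsg.Out ↥G) from hk).trans hc)
  · obtain ⟨j, hj⟩ := mem_zpowers_iff.1 (hgen ⟨c, hc⟩)
    have h1 : c = σ ^ j := by
      have := congrArg Subtype.val hj
      exact this.symm
    have h2 : fieldAut hG σ ∈ MulAction.stabilizer (MulAut ↥G) z := hfix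
    have h3 : fieldAut hG c ∈ MulAction.stabilizer (MulAut ↥G) z := by
      rw [h1, map_zpow]
      exact zpow_mem h2 j
    exact h3

end Cfsg.Agent.H142.OnField
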