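import Mathlib
import Cfsg.Agent.H524.RegTool
import Cfsg.Agent.H378.RegFin

/-!
# S4129, own characteristic: the abstract criterion and G2, F4, E6, E8 (helper142)

* `od_of_cyclotomic` : the primes dividing `Φ_m(q)`;
* `reg_of_cent` : the criterion;
* `own_G2`, `own_F4`, `own_E6`, `own_E8` : `RegB S l q` for the Chevalley groups in characteristic `l`.
-/

set_option autoImplicit false
set_option linter.unusedSectionVars false

namespace Cfsg.Agent.H142.RegOwn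

open Subgroup Polynomial Cfsg.Agent.H524.DirRed Cfsg.Agent.H524.RegTool Cfsg.Agent.H378.ExcAdj
open Cfsg.Lie Cfsg.Agent.ChevalleyStructure.CoxeterGeomTypes Cfsg.Agent.BpExc.RowsUntw Cfsg.Agent.BpExc.FamInst

/-- `|Φ_m(q)|` -/
noncomputable abbrev cv (m q : ℕ) : ℕ := ((cyclotomic m ℤ).eval ((q : ℕ) : ℤ)).natAbs

theorem od_of_cyclotomic {q r m : ℕ} (hr : r.Prime) (hrm : ¬ r ∣ m) (h : r ∣ cv m q) : od q r = m := by
  have : Fact r.Prime := ⟨hr⟩
  have : NeZero ((m : ℕ) : ZMod r) := ⟨fun h0 => hrm ((ZMod.natCast_eq_zero_iff m r).1 h0)⟩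
  have h1 : (r : ℤ) ∣ (cyclotomic m ℤ).eval ((q : ℕ) : ℤ) := Int.natCast_dvd.2 h
  rw [← ZMod.intCast_zmod_eq_zero_iff_dvd] at h1
  have h3 : (((cyclotomic m ℤ).eval ((q : ℕ) : ℤ) : ℤ) : ZMod r) =
      (cyclotomic m (ZMod r)).eval ((q : ℕ) : ZMod r) := by
    rw [← Polynomial.map_cyclotomic_int m (ZMod r)]
    have h4 := Polynomial.eval_intCast_map (Int.castRingHom (ZMod r)) (cyclotomic m ℤ) ((q : ℕ) : ℤ)
    rw [Int.cast_natCast] at h4
    rw [h4]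
    rfl
  rw [h3] at h1
  exact (Polynomial.isRoot_cyclotomic_iff.1 h1).eq_orderOf.symm

/-- **The criterion.** -/
theorem reg_of_cent {S : Type*} [Group S] [Finite S] {q0 m l q : ℕ} (hm : 0 < m)
    (hC : ∀ (x : S) (r : ℕ), r.Prime → orderOf x = r → od q0 r = m →
      Nat.card (centralizer ({x} : Set S)) ∣ cv m q0)
    (hl : l.Prime) (hlq : l ∣ q0) (hq : q.Prime) (hd : q ∣ Nat.card S)
    (hr : ∃ r, r.Prime ∧ od q0 r = m ∧ r ∣ Nat.card S)
    (hs : ∃ s, s.Prime ∧ s ≠ l ∧ s ∣ Nat.card S ∧ ¬ s ∣ cv m q0)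
    (hqm : q ∣ cv m q0 → q ∣ m → ∃ a, q ^ a ∣ Nat.card S ∧ ¬ q ^ a ∣ cv m q0) : RegB S l q := by
  obtain ⟨r, hr, ho, hrd⟩ := hr
  have : Fact r.Prime := ⟨hr⟩
  obtain ⟨x, hx⟩ := exists_prime_orderOf_dvd_card' r hrd
  have hrl : r ≠ l := by
    rintro rfl
    exact H378.RegFin.not_dvd_q hr ho hm hlq
  have hlx : ¬ l ∣ orderOf x := by
    rw [hx]
    exact fun h => hrl ((Nat.prime_dvd_prime_iff_eq hl hr).1 h).symm
  by_cases hqN : q ∣ cv m q0
  · by_cases hqm' : q ∣ m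
    · obtain ⟨a, ha, ha'⟩ := hqm hqN hqm'
      exact RegB.of_dvd hq hlx (hC x r hr hx ho) ha ha'
    · have hoq := od_of_cyclotomic hq hqm' hqN
      obtain ⟨s, hs, hsl, hsd, hsN⟩ := hs
      have : Fact s.Prime := ⟨hs⟩
      have : Fact q.Prime := ⟨hq⟩
      obtain ⟨y, hy⟩ := exists_prime_orderOf_dvd_card' s hsd
      refine RegB.of_prime hl hq hs hsl hy hd fun hc => ?_
      obtain ⟨z, hz⟩ := exists_prime_orderOf_dvd_card' q hc
      have hz' : orderOf (z : S) = q := by rw [Subgroup.orderOf_coe, hz]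
      have h1 := hC (z : S) q hq hz' hoq
      have h2 : y ∈ centralizer ({(z : S)} : Set S) := by
        rw [mem_centralizer_singleton_iff]
        exact (mem_centralizer_singleton_iff.1 z.2).symm
      have h3 : s ∣ Nat.card (centralizer ({(z : S)} : Set S)) := by
        rw [← hy, ← Subgroup.orderOf_mk y h2]
        exact orderOf_dvd_natCard _
      exact hsN (h3.trans h1)
  · refine RegB.of_prime hl hq hr hrl hx hd fun hc => hqN (hc.trans (hC x r hr hx ho))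

/-! ### arithmetic -/

/-- `q0 = l^n`: one of 2, 3 -/
theorem exists_two_three {l q0 n : ℕ} (hl : l.Prime) (hq0 : q0 = l ^ n) :
    ∃ s : ℕ, s.Prime ∧ s ≠ l ∧ (s = 2 ∨ s = 3) ∧ s ∣ q0 ^ 2 - 1 := by
  have key : ∀ s : ℕ, s.Prime → s ≠ l → ¬ s ∣ q0 := by
    intro s hs hsl h
    rw [hq0] at h
    exact hsl ((Nat.prime_dvd_prime_iff_eq hs hl).1 (hs.dvd_of_dvd_pow h))
  by_cases h2 : l = 2
  · refine ⟨3, Nat.prime_three, by omega, Or.inr rfl, ?_⟩
    have h := key 3 Nat.prime_three (by omega)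
    have h1 : q0 % 3 = 1 ∨ q0 % 3 = 2 := by omega
    have h3 : q0 ^ 2 % 3 = 1 := by
      rcases h1 with h1 | h1 <;> rw [Nat.pow_mod, h1]
    omega
  · refine ⟨2, Nat.prime_two, by omega, Or.inl rfl, ?_⟩
    have h := key 2 Nat.prime_two (by omega)
    have h1 : q0 % 2 = 1 := by omega
    have h3 : q0 ^ 2 % 2 = 1 := by
      rw [Nat.pow_mod, h1]
    omega

/-- `q0 = l^n`: one of 2, 5 -/
theorem exists_two_five {l q0 n : ℕ} (hl : l.Prime) (hq0 : q0 = l ^ n) :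
    ∃ s : ℕ, s.Prime ∧ s ≠ l ∧ (s = 2 ∨ s = 5) ∧ s ∣ q0 ^ 8 - 1 := by
  have key : ∀ s : ℕ, s.Prime → s ≠ l → ¬ s ∣ q0 := by
    intro s hs hsl h
    rw [hq0] at h
    exact hsl ((Nat.prime_dvd_prime_iff_eq hs hl).1 (hs.dvd_of_dvd_pow h))
  by_cases h2 : l = 2
  · refine ⟨5, Nat.prime_five, by omega, Or.inr rfl, ?_⟩
    have h := key 5 Nat.prime_five (by omega)
    have h1 : q0 % 5 = 1 ∨ q0 % 5 = 2 ∨ q0 % 5 = 3 ∨ q0 % 5 = 4 := by omega
    have h3 : q0 ^ 8 % 5 = 1 := by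
      rcases h1 with h1 | h1 | h1 | h1 <;> rw [Nat.pow_mod, h1]
    omega
  · refine ⟨2, Nat.prime_two, by omega, Or.inl rfl, ?_⟩
    have h := key 2 Nat.prime_two (by omega)
    have h1 : q0 % 2 = 1 := by omega
    have h3 : q0 ^ 8 % 2 = 1 := by
      rw [Nat.pow_mod, h1]
    omega

/-- a small prime does not divide the value -/
theorem not_dvd_cv {m q s : ℕ} {P : ℤ} (he : (cyclotomic m ℤ).eval ((q : ℕ) : ℤ) = P)
    (h : ((P : ℤ) : ZMod s) ≠ 0) : ¬ s ∣ cv m q := by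
  intro h1
  apply h
  rw [ZMod.intCast_zmod_eq_zero_iff_dvd, ← he]
  exact Int.natCast_dvd.2 h1

theorem eval_cyc3 (q : ℤ) : (cyclotomic 3 ℤ).eval q = q ^ 2 + q + 1 := by
  rw [cyclotomic_three]
  simp

theorem eval_cyc6 (q : ℤ) : (cyclotomic 6 ℤ).eval q = q ^ 2 - q + 1 := by
  rw [cyclotomic_six]
  simp

theorem eval_cyc9 (q : ℤ) : (cyclotomic 9 ℤ).eval q = q ^ 6 + q ^ 3 + 1 := by
  have h := cyclotomic_expand_eq_cyclotomic Nat.prime_three (show 3 ∣ 3 by norm_num) ℤ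
  rw [show 3 * 3 = 9 from rfl, cyclotomic_three] at h
  rw [← h, expand_eval]
  simp
  ring

theorem eval_cyc12 (q : ℤ) : (cyclotomic 12 ℤ).eval q = q ^ 4 - q ^ 2 + 1 := by
  have h := cyclotomic_expand_eq_cyclotomic Nat.prime_two (show 2 ∣ 6 by norm_num) ℤ
  rw [show 6 * 2 = 12 from rfl, cyclotomic_six] at h
  rw [← h, expand_eval]
  simp
  ring

theorem eval_cyc24 (q : ℤ) : (cyclotomic 24 ℤ).eval q = q ^ 8 - q ^ 4 + 1 := by
  have h := cyclotomic_expand_eq_cyclotomic Nat.prime_two (show 2 ∣ 12 by norm_num) ℤ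
  rw [show 12 * 2 = 24 from rfl] at h
  rw [← h, expand_eval, eval_cyc12]
  ring

theorem eval_cyc18 (q : ℤ) : (cyclotomic 18 ℤ).eval q = q ^ 6 - q ^ 3 + 1 := by
  have h := cyclotomic_expand_eq_cyclotomic Nat.prime_three (show 3 ∣ 6 by norm_num) ℤ
  rw [show 6 * 3 = 18 from rfl, cyclotomic_six] at h
  rw [← h, expand_eval]
  simp
  ring

/-- from an integer divisibility -/
theorem cv_dvd {m q n : ℕ} {P z : ℤ} (he : (cyclotomic m ℤ).eval ((q : ℕ) : ℤ) = P) (h : (n : ℤ) = P * z) :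
    cv m q ∣ n := by
  rw [cv, he, ← Int.natCast_dvd_natCast, Int.natCast_natAbs, abs_dvd]
  exact ⟨z, h⟩

theorem lt_quartic {q : ℤ} (hq : 2 ≤ q) : 1 < q ^ 4 - q ^ 2 + 1 := by
  have h1 : (4 : ℤ) ≤ q ^ 2 := by nlinarith
  have h2 : q ^ 4 = q ^ 2 * q ^ 2 := by ring
  nlinarith

theorem one_lt_cv {m q : ℕ} {P : ℤ} (he : (cyclotomic m ℤ).eval ((q : ℕ) : ℤ) = P) (h : 1 < P) : cv m q ≠ 1 := by
  rw [cv, he]
  omega

/-- no prime divisor of `m` divides the value: a prime divisor -/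
theorem exists_prime {q m : ℕ} (h1 : cv m q ≠ 1) (h : ∀ s : ℕ, s.Prime → s ∣ m → ¬ s ∣ cv m q) :
    ∃ r, r.Prime ∧ od q r = m ∧ r ∣ cv m q := by
  obtain ⟨r, hr, hd⟩ := Nat.exists_prime_and_dvd h1
  exact ⟨r, hr, od_of_cyclotomic hr (fun h2 => h r hr h2 hd) hd, hd⟩

/-- the value is not divisible by 9 -/
theorem exists_prime_three {q m : ℕ} (h3 : 3 < cv m q) (h9 : ¬ 9 ∣ cv m q)
    (h : ∀ s : ℕ, s.Prime → s ≠ 3 → s ∣ m → ¬ s ∣ cv m q) :
    ∃ r, r.Prime ∧ r ≠ 3 ∧ od q r = m ∧ r ∣ cv m q := by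
  obtain ⟨r, hr, hr3, hd⟩ : ∃ r : ℕ, r.Prime ∧ r ≠ 3 ∧ r ∣ cv m q := by
    generalize cv m q = N at *
    by_cases h4 : 3 ∣ N
    · obtain ⟨k, rfl⟩ := h4
      obtain ⟨r, hr, hd⟩ := Nat.exists_prime_and_dvd (n := k) (by omega)
      refine ⟨r, hr, ?_, hd.mul_left _⟩
      rintro rfl
      obtain ⟨j, rfl⟩ := hd
      exact h9 ⟨j, by ring⟩
    · obtain ⟨r, hr, hd⟩ := Nat.exists_prime_and_dvd (n := N) (by omega)
      exact ⟨r, hr, fun e => h4 (e ▸ hd), hd⟩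
  exact ⟨r, hr, hr3, od_of_cyclotomic hr (fun h2 => h r hr hr3 h2 hd) hd, hd⟩

theorem prime_dvd_twelve {s : ℕ} (hs : s.Prime) (h : s ∣ 12) : s = 2 ∨ s = 3 := by
  have h1 : s ∣ 2 ^ 2 * 3 := h
  rcases hs.dvd_mul.1 h1 with h2 | h2
  · exact Or.inl ((Nat.prime_dvd_prime_iff_eq hs Nat.prime_two).1 (hs.dvd_of_dvd_pow h2))
  · exact Or.inr ((Nat.prime_dvd_prime_iff_eq hs Nat.prime_three).1 h2)

theorem prime_dvd_24 {s : ℕ} (hs : s.Prime) (h : s ∣ 24) : s = 2 ∨ s = 3 := by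
  have h1 : s ∣ 2 ^ 3 * 3 := h
  rcases hs.dvd_mul.1 h1 with h2 | h2
  · exact Or.inl ((Nat.prime_dvd_prime_iff_eq hs Nat.prime_two).1 (hs.dvd_of_dvd_pow h2))
  · exact Or.inr ((Nat.prime_dvd_prime_iff_eq hs Nat.prime_three).1 h2)

theorem prime_dvd_18 {s : ℕ} (hs : s.Prime) (h : s ∣ 18) : s = 2 ∨ s = 3 := by
  have h1 : s ∣ 2 * 3 ^ 2 := h
  rcases hs.dvd_mul.1 h1 with h2 | h2
  · exact Or.inl ((Nat.prime_dvd_prime_iff_eq hs Nat.prime_two).1 h2)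
  · exact Or.inr ((Nat.prime_dvd_prime_iff_eq hs Nat.prime_three).1 (hs.dvd_of_dvd_pow h2))

theorem prime_dvd_9 {s : ℕ} (hs : s.Prime) (h : s ∣ 9) : s = 3 := by
  have h1 : s ∣ 3 ^ 2 := h
  exact (Nat.prime_dvd_prime_iff_eq hs Nat.prime_three).1 (hs.dvd_of_dvd_pow h1)

theorem prime_dvd_6 {s : ℕ} (hs : s.Prime) (h : s ∣ 6) : s = 2 ∨ s = 3 := by
  have h1 : s ∣ 2 * 3 := h
  rcases hs.dvd_mul.1 h1 with h2 | h2
  · exact Or.inl ((Nat.prime_dvd_prime_iff_eq hs Nat.prime_two).1 h2)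
  · exact Or.inr ((Nat.prime_dvd_prime_iff_eq hs Nat.prime_three).1 h2)

/-- 2 and 3 do not divide `Φ_12(q)` -/
theorem not_dvd_12 {q s : ℕ} (hs : s = 2 ∨ s = 3) : ¬ s ∣ cv 12 q := by
  refine not_dvd_cv (eval_cyc12 _) ?_
  push_cast
  rcases hs with rfl | rfl
  · have key : ∀ z : ZMod 2, z ^ 4 - z ^ 2 + 1 ≠ 0 := by decide
    exact key _
  · have key : ∀ z : ZMod 3, z ^ 4 - z ^ 2 + 1 ≠ 0 := by decide
    exact key _

theorem not_dvd_24 {q s : ℕ} (hs : s = 2 ∨ s = 3) : ¬ s ∣ cv 24 q := by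
  refine not_dvd_cv (eval_cyc24 _) ?_
  push_cast
  rcases hs with rfl | rfl
  · have key : ∀ z : ZMod 2, z ^ 8 - z ^ 4 + 1 ≠ 0 := by decide
    exact key _
  · have key : ∀ z : ZMod 3, z ^ 8 - z ^ 4 + 1 ≠ 0 := by decide
    exact key _

theorem not_dvd_9 {q s : ℕ} (hs : s = 2 ∨ s = 5) : ¬ s ∣ cv 9 q := by
  refine not_dvd_cv (eval_cyc9 _) ?_
  push_cast
  rcases hs with rfl | rfl
  · have key : ∀ z : ZMod 2, z ^ 6 + z ^ 3 + 1 ≠ 0 := by decide
    exact key _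
  · have key : ∀ z : ZMod 5, z ^ 6 + z ^ 3 + 1 ≠ 0 := by decide
    exact key _

theorem not_dvd_18 {q s : ℕ} (hs : s = 2 ∨ s = 5) : ¬ s ∣ cv 18 q := by
  refine not_dvd_cv (eval_cyc18 _) ?_
  push_cast
  rcases hs with rfl | rfl
  · have key : ∀ z : ZMod 2, z ^ 6 - z ^ 3 + 1 ≠ 0 := by decide
    exact key _
  · have key : ∀ z : ZMod 5, z ^ 6 - z ^ 3 + 1 ≠ 0 := by decide
    exact key _

theorem nine_not_dvd_9 {q : ℕ} : ¬ 9 ∣ cv 9 q := by
  refine not_dvd_cv (eval_cyc9 _) ?_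
  push_cast
  have key : ∀ z : ZMod 9, z ^ 6 + z ^ 3 + 1 ≠ 0 := by decide
  exact key _

theorem nine_not_dvd_18 {q : ℕ} : ¬ 9 ∣ cv 18 q := by
  refine not_dvd_cv (eval_cyc18 _) ?_
  push_cast
  have key : ∀ z : ZMod 9, z ^ 6 - z ^ 3 + 1 ≠ 0 := by decide
  exact key _

theorem mod_of_three_dvd_9 {q : ℕ} (h : 3 ∣ cv 9 q) : q % 3 = 1 := by
  by_contra hcon
  refine not_dvd_cv (eval_cyc9 _) ?_ h
  push_cast
  have key : ∀ z : ZMod 3, z ≠ 1 → z ^ 6 + z ^ 3 + 1 ≠ 0 := by decide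
  apply key
  intro h1
  apply hcon
  have h2 : ((q : ℕ) : ZMod 3) = ((1 : ℕ) : ZMod 3) := by rw [h1]; rfl
  exact (ZMod.natCast_eq_natCast_iff' q 1 3).1 h2

theorem mod_of_three_dvd_18 {q : ℕ} (h : 3 ∣ cv 18 q) : q % 3 = 2 := by
  by_contra hcon
  refine not_dvd_cv (eval_cyc18 _) ?_ h
  push_cast
  have key : ∀ z : ZMod 3, z ≠ 2 → z ^ 6 - z ^ 3 + 1 ≠ 0 := by decide
  apply key
  intro h1
  apply hcon
  have h2 : ((q : ℕ) : ZMod 3) = ((2 : ℕ) : ZMod 3) := by rw [h1]; rfl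
  exact (ZMod.natCast_eq_natCast_iff' q 2 3).1 h2

/-! ### the untwisted groups -/

universe u

variable {F : Type u} [Field F] [Finite F] {l : ℕ}

theorem exists_pow (F : Type u) [Field F] [Finite F] (l : ℕ) [CharP F l] :
    l.Prime ∧ l ∣ Nat.card F ∧ ∃ n, Nat.card F = l ^ n := by
  have : Fintype F := Fintype.ofFinite F
  obtain ⟨n, hl, hn⟩ := FiniteField.card F l
  rw [Nat.card_eq_fintype_card]
  exact ⟨hl, by rw [hn]; exact dvd_pow_self _ n.2.ne', n, hn⟩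

theorem own_F4 [CharP F l] {q : ℕ} (hq : q.Prime) (hd : q ∣ Nat.card ↥(chevF4.group F)) :
    RegB ↥(chevF4.group F) l q := by
  obtain ⟨hl, hlq, n, hn⟩ := exists_pow F l
  have hF : 1 < Nat.card F := Finite.one_lt_card
  have hc : Nat.card ↥(chevF4.group F) = Nat.card F ^ 24 * (Nat.card F ^ 2 - 1) * (Nat.card F ^ 6 - 1) *
      (Nat.card F ^ 8 - 1) * (Nat.card F ^ 12 - 1) := by
    have : Fintype F := Fintype.ofFinite F
    rw [Nat.card_eq_fintype_card (α := F)]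
    exact Cfsg.Agent.S1062.result (F := F) rfl
  refine reg_of_cent (m := 12) (by norm_num)
    (fun x r hr hx ho => (H378.RegFin.cent_od f4T inv_F4 one_ne_zero hr hx ho (by decide) (by norm_num)).2) hl hlq hq hd
    ?_ ?_ ?_
  · obtain ⟨r, hr, ho, -⟩ := exists_prime (q := Nat.card F) (m := 12) (one_lt_cv (eval_cyc12 _)
      (lt_quartic (by exact_mod_cast hF))) fun s hs h12 => not_dvd_12 (prime_dvd_twelve hs h12)
    refine ⟨r, hr, ho, ?_⟩
    rw [hc]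
    exact (dvd_of_od_dvd hF.le (by rw [ho])).mul_left _
  · obtain ⟨s, hs, hsl, h23, hsd⟩ := exists_two_three hl hn
    refine ⟨s, hs, hsl, ?_, not_dvd_12 h23⟩
    rw [hc]
    exact (((hsd.mul_left _).mul_right _).mul_right _).mul_right _
  · intro h1 h2
    exact absurd h1 (not_dvd_12 (prime_dvd_twelve hq h2))

theorem own_E8 [CharP F l] {q : ℕ} (hq : q.Prime) (hd : q ∣ Nat.card ↥(chevE8.group F)) :
    RegB ↥(chevE8.group F) l q := by
  obtain ⟨hl, hlq, n, hn⟩ := exists_pow F l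
  have hF : 1 < Nat.card F := Finite.one_lt_card
  have hc : Nat.card ↥(chevE8.group F) = Nat.card F ^ 120 * (Nat.card F ^ 2 - 1) * (Nat.card F ^ 8 - 1) *
      (Nat.card F ^ 12 - 1) * (Nat.card F ^ 14 - 1) * (Nat.card F ^ 18 - 1) * (Nat.card F ^ 20 - 1) *
      (Nat.card F ^ 24 - 1) * (Nat.card F ^ 30 - 1) := by
    have : Fintype F := Fintype.ofFinite F
    rw [Nat.card_eq_fintype_card (α := F)]
    exact Cfsg.Agent.S1065.result (F := F) rfl
  refine reg_of_cent (m := 24) (by norm_num)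
    (fun x r hr hx ho => (H378.RegFin.cent_od e8T inv_E8 one_ne_zero hr hx ho (by decide) (by norm_num)).2) hl hlq hq hd
    ?_ ?_ ?_
  · obtain ⟨r, hr, ho, -⟩ := exists_prime (q := Nat.card F) (m := 24) (one_lt_cv (eval_cyc24 _) (by
      have h1 : (2 : ℤ) ≤ (Nat.card F : ℤ) := by exact_mod_cast hF
      have h2 : (16 : ℤ) ≤ (Nat.card F : ℤ) ^ 4 := by
        calc (16 : ℤ) = 2 ^ 4 := by norm_num
          _ ≤ _ := by gcongr
      nlinarith)) fun s hs h24 => not_dvd_24 (prime_dvd_24 hs h24)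
    refine ⟨r, hr, ho, ?_⟩
    rw [hc]
    exact ((dvd_of_od_dvd hF.le (by rw [ho])).mul_left _).mul_right _
  · obtain ⟨s, hs, hsl, h23, hsd⟩ := exists_two_three hl hn
    refine ⟨s, hs, hsl, ?_, not_dvd_24 h23⟩
    rw [hc]
    exact (((((((hsd.mul_left _).mul_right _).mul_right _).mul_right _).mul_right _).mul_right _).mul_right _).mul_right _
  · intro h1 h2
    exact absurd h1 (not_dvd_24 (prime_dvd_24 hq h2))

theorem not_dvd_3 {q s : ℕ} (h2 : q % 3 = 2) (hs : s = 2 ∨ s = 3) : ¬ s ∣ cv 3 q := by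
  refine not_dvd_cv (eval_cyc3 _) ?_
  push_cast
  rcases hs with rfl | rfl
  · have key : ∀ z : ZMod 2, z ^ 2 + z + 1 ≠ 0 := by decide
    exact key _
  · have h3 : ((q : ℕ) : ZMod 3) = ((2 : ℕ) : ZMod 3) := (ZMod.natCast_eq_natCast_iff' q 2 3).2 h2
    rw [h3]
    decide

theorem not_dvd_6 {q s : ℕ} (h2 : q % 3 ≠ 2) (hs : s = 2 ∨ s = 3) : ¬ s ∣ cv 6 q := by
  refine not_dvd_cv (eval_cyc6 _) ?_
  push_cast
  rcases hs with rfl | rfl
  · have key : ∀ z : ZMod 2, z ^ 2 - z + 1 ≠ 0 := by decide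
    exact key _
  · have key : ∀ z : ZMod 3, z ≠ 2 → z ^ 2 - z + 1 ≠ 0 := by decide
    apply key
    intro h1
    apply h2
    have h3 : ((q : ℕ) : ZMod 3) = ((2 : ℕ) : ZMod 3) := by rw [h1]; rfl
    exact (ZMod.natCast_eq_natCast_iff' q 2 3).1 h3

theorem own_G2 [CharP F l] {q : ℕ} (hq : q.Prime) (hd : q ∣ Nat.card ↥(chevG2.group F)) :
    RegB ↥(chevG2.group F) l q := by
  obtain ⟨hl, hlq, n, hn⟩ := exists_pow F l
  have hF : 1 < Nat.card F := Finite.one_lt_card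
  have hc : Nat.card ↥(chevG2.group F) = Nat.card F ^ 6 * (Nat.card F ^ 2 - 1) * (Nat.card F ^ 6 - 1) := by
    have : Fintype F := Fintype.ofFinite F
    rw [Nat.card_eq_fintype_card (α := F)]
    exact Cfsg.Agent.S1059.result (F := F) rfl
  have hsd' : ∀ s, s ∣ Nat.card F ^ 2 - 1 → s ∣ Nat.card ↥(chevG2.group F) := by
    intro s hsd
    rw [hc]
    exact (hsd.mul_left _).mul_right _
  have h2F : (2 : ℤ) ≤ (Nat.card F : ℤ) := by exact_mod_cast hF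
  by_cases h3 : Nat.card F % 3 = 2
  · refine reg_of_cent (m := 3) (by norm_num)
      (fun x r hr hx ho => (H378.RegFin.cent_od g2T inv_G2 one_ne_zero hr hx ho (by decide) (by norm_num)).2) hl hlq hq hd
      ?_ ?_ ?_
    · obtain ⟨r, hr, ho, -⟩ := exists_prime (q := Nat.card F) (m := 3) (one_lt_cv (eval_cyc3 _) (by nlinarith))
        fun s hs h12 => not_dvd_3 h3 (Or.inr ((Nat.prime_dvd_prime_iff_eq hs Nat.prime_three).1 h12))
      refine ⟨r, hr, ho, ?_⟩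
      rw [hc]
      exact (dvd_of_od_dvd hF.le (by rw [ho]; norm_num)).mul_left _
    · obtain ⟨s, hs, hsl, h23, hsd⟩ := exists_two_three hl hn
      exact ⟨s, hs, hsl, hsd' s hsd, not_dvd_3 h3 h23⟩
    · intro h1 h2
      exact absurd h1 (not_dvd_3 h3 (Or.inr ((Nat.prime_dvd_prime_iff_eq hq Nat.prime_three).1 h2)))
  · refine reg_of_cent (m := 6) (by norm_num)
      (fun x r hr hx ho => (H378.RegFin.cent_od g2T inv_G2 one_ne_zero hr hx ho (by decide) (by norm_num)).2) hl hlq hq hd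
      ?_ ?_ ?_
    · obtain ⟨r, hr, ho, -⟩ := exists_prime (q := Nat.card F) (m := 6) (one_lt_cv (eval_cyc6 _) (by nlinarith))
        fun s hs h12 => not_dvd_6 h3 (prime_dvd_6 hs h12)
      refine ⟨r, hr, ho, ?_⟩
      rw [hc]
      exact (dvd_of_od_dvd hF.le (by rw [ho])).mul_left _
    · obtain ⟨s, hs, hsl, h23, hsd⟩ := exists_two_three hl hn
      exact ⟨s, hs, hsl, hsd' s hsd, not_dvd_6 h3 h23⟩
    · intro h1 h2
      exact absurd h1 (not_dvd_6 h3 (prime_dvd_6 hq h2))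

theorem three_dvd_pow_sub {q n : ℕ} (h : q % 3 = 1) : 3 ∣ q ^ n - 1 := by
  have h1 : q ^ n % 3 = 1 := by
    rw [Nat.pow_mod, h, one_pow]
    rfl
  omega

theorem own_E6 [CharP F l] {q : ℕ} (hq : q.Prime) (hd : q ∣ Nat.card ↥(chevE6.group F)) :
    RegB ↥(chevE6.group F) l q := by
  obtain ⟨hl, hlq, n, hn⟩ := exists_pow F l
  have hF : 1 < Nat.card F := Finite.one_lt_card
  have hc : Nat.gcd 3 (Nat.card F - 1) * Nat.card ↥(chevE6.group F) = Nat.card F ^ 36 * (Nat.card F ^ 2 - 1) *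
      (Nat.card F ^ 5 - 1) * (Nat.card F ^ 6 - 1) * (Nat.card F ^ 8 - 1) * (Nat.card F ^ 9 - 1) *
      (Nat.card F ^ 12 - 1) := by
    have : Fintype F := Fintype.ofFinite F
    rw [Nat.card_eq_fintype_card (α := F)]
    exact Cfsg.Agent.S1063.result (F := F) rfl
  have hdiv : ∀ r : ℕ, r.Prime → r ≠ 3 → r ∣ Nat.card F ^ 36 * (Nat.card F ^ 2 - 1) *
      (Nat.card F ^ 5 - 1) * (Nat.card F ^ 6 - 1) * (Nat.card F ^ 8 - 1) * (Nat.card F ^ 9 - 1) *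
      (Nat.card F ^ 12 - 1) → r ∣ Nat.card ↥(chevE6.group F) := by
    intro r hr h3 h
    rw [← hc] at h
    rcases hr.dvd_mul.1 h with h1 | h1
    · exact absurd ((Nat.prime_dvd_prime_iff_eq hr Nat.prime_three).1 (h1.trans (Nat.gcd_dvd_left _ _))) h3
    · exact h1
  have h2F : (2 : ℤ) ≤ (Nat.card F : ℤ) := by exact_mod_cast hF
  have h64 : (8 : ℤ) ≤ (Nat.card F : ℤ) ^ 3 := by
    calc (8 : ℤ) = 2 ^ 3 := by norm_num
      _ ≤ _ := by gcongr
  refine reg_of_cent (m := 9) (by norm_num)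
    (fun x r hr hx ho => (H378.RegFin.cent_od e6T inv_E6 three_ne_zero hr hx ho (by decide) (by norm_num)).2) hl hlq hq hd
    ?_ ?_ ?_
  · obtain ⟨r, hr, hr3, ho, -⟩ := exists_prime_three (q := Nat.card F) (m := 9) (by
      rw [cv, eval_cyc9]
      have : (3 : ℤ) < (Nat.card F : ℤ) ^ 6 + (Nat.card F : ℤ) ^ 3 + 1 := by nlinarith
      omega) nine_not_dvd_9 fun s hs h3 h9 => absurd (prime_dvd_9 hs h9) h3
    refine ⟨r, hr, ho, hdiv r hr hr3 ?_⟩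
    exact ((dvd_of_od_dvd hF.le (by rw [ho])).mul_left _).mul_right _
  · obtain ⟨s, hs, hsl, h25, hsd⟩ := exists_two_five hl hn
    refine ⟨s, hs, hsl, hdiv s hs ?_ ?_, not_dvd_9 h25⟩
    · rcases h25 with rfl | rfl <;> norm_num
    · exact ((hsd.mul_left _).mul_right _).mul_right _
  · intro h1 h2
    have hq3 := prime_dvd_9 hq h2
    subst hq3
    refine ⟨2, ?_, by norm_num; exact nine_not_dvd_9⟩
    have h3 := mod_of_three_dvd_9 h1
    have hg : Nat.gcd 3 (Nat.card F - 1) = 3 := Nat.gcd_eq_left (by omega)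
    rw [hg] at hc
    obtain ⟨a, ha⟩ := three_dvd_pow_sub (n := 2) h3
    obtain ⟨b, hb⟩ := three_dvd_pow_sub (n := 5) h3
    obtain ⟨c, hc'⟩ := three_dvd_pow_sub (n := 6) h3
    rw [ha, hb, hc'] at hc
    refine ⟨Nat.card F ^ 36 * a * b * c * (Nat.card F ^ 8 - 1) * (Nat.card F ^ 9 - 1) * (Nat.card F ^ 12 - 1), ?_⟩
    refine Nat.eq_of_mul_eq_mul_left (show 0 < 3 by norm_num) ?_
    rw [hc]
    ring

end Cfsg.Agent.H142.RegOwn
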